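import Cfsg.Agent.E7P.Alm.Mod

/-!
# S5932, task ALG-M: diagonal endomorphisms of `V_b` (helper66)

* `Mod.comm, Mod.res', Mod.h1, Mod.triv, Mod.u_inj, Mod.u_poly` : consequences of the model;
* `eq_of_comm` : the span of `U` is its own centraliser;
* `Mod.diag` : a diagonal `s` such that `s U s⁻¹` commutes with `U` is a scalar multiple of an element of the torus of the product.
-/

set_option autoImplicit false
set_option linter.unusedSectionVars false

namespace Cfsg.Agent.E7P.Alm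

open Matrix Cfsg.Agent.H943.SL2Rel Cfsg.Agent.H943.SL2Mod Cfsg.Agent.R2.H28.SL2

theorem dg_sum {p : ℕ} (hp : 0 < p) {c : ℕ → ℕ} (hc : ∀ j, c j < p) (a : ℕ) :
    ∑ j : Fin a, c j * p ^ (j : ℕ) < p ^ a ∧ ∀ l < a, dg p (∑ j : Fin a, c j * p ^ (j : ℕ)) l = c l := by
  induction a with
  | zero => simp
  | succ a ih =>
    have h1 : ∑ j : Fin (a + 1), c j * p ^ (j : ℕ) = ∑ j : Fin a, c j * p ^ (j : ℕ) + p ^ a * (c a + p * 0) := by
      rw [Fin.sum_univ_castSucc, mul_zero, add_zero, mul_comm (p ^ a)]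
      rfl
    rw [h1]
    refine ⟨?_, fun l hl => ?_⟩
    · have := Nat.mul_le_mul_left (p ^ a) (hc a)
      have := ih.1
      rw [pow_succ, mul_zero, add_zero]
      rw [Nat.mul_succ] at *
      omega
    · rw [dg_aux hp ih.1 (hc a)]
      split_ifs with h2 h3
      · exact ih.2 l h2
      · rw [h3]
      · omega

theorem dg_of_le {p n a i : ℕ} (hp : 0 < p) (hn : n < p ^ a) (hi : a ≤ i) : dg p n i = 0 := dg_zero_of_le hp hn hi

theorem h_u_h {k : Type*} [Field k] (z : kˣ) (t : k) : h z * u t * (h z)⁻¹ = u ((z : k) ^ 2 * t) := by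
  rw [h_u, mul_inv_cancel_right]

theorem h_lo_h {k : Type*} [Field k] (z : kˣ) (t : k) :
    h z * (w * u t * w⁻¹) * (h z)⁻¹ = w * u ((z : k)⁻¹ ^ 2 * t) * w⁻¹ := by
  rw [← Units.val_inv_eq_inv_val, ← h_u_h, ← mul_assoc w, ← mul_assoc w, ← h_w, h_inv, inv_inv]
  have := h_w z⁻¹
  rw [inv_inv, h_inv] at this
  calc _ = h z * w * u t * (w⁻¹ * ((h z)⁻¹ * w)) * w⁻¹ := by group
    _ = _ := by rw [this]; group

theorem map_u {F k : Type*} [Field F] [Field k] (f : F →+* k) (t : F) : SpecialLinearGroup.map f (u t) = u (f t) :=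
  Subtype.ext (Matrix.ext fun i j => show f ((u t).1 i j) = _ by fin_cases i <;> fin_cases j <;> simp [u])

theorem map_w {F k : Type*} [Field F] [Field k] (f : F →+* k) : SpecialLinearGroup.map f w = w :=
  Subtype.ext (Matrix.ext fun i j => show f ((w : SpecialLinearGroup (Fin 2) F).1 i j) = _ by
    fin_cases i <;> fin_cases j <;> simp [w])

theorem map_h {F k : Type*} [Field F] [Field k] (f : F →+* k) (z : Fˣ) :
    SpecialLinearGroup.map f (h z) = h (Units.map (f : F →* k) z) :=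
  Subtype.ext (Matrix.ext fun i j => show f ((h z).1 i j) = _ by fin_cases i <;> fin_cases j <;> simp [h])

variable {k : Type*} [Field k] {a : ℕ} [DecidableEq k] {F : Type*} [Field F] [Fintype F] [DecidableEq F] {ι : F →+* k}
  {p : ℕ} [Fact p.Prime] [CharP k p] [CharP F p] {V : Type*} [AddCommGroup V] [Module k V]
  {ρ : Representation k (SpecialLinearGroup (Fin 2) F) V} {b : ℕ} {v : ℕ → V}
  {R : (Fin a → SpecialLinearGroup (Fin 2) k) →* Module.End k V}

theorem dg_sub (hb : b < p ^ a) {m : ℕ} (hm : m ∈ Bf k b) (l : ℕ) : dg p (b - m) l = dg p b l - dg p m l := by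
  have hp := (Fact.out : p.Prime).pos
  have h2 := sum_dg p m a
  have h3 := sum_dg p b a
  have h5 := (le_of_mem_Bf hm).trans_lt hb
  rw [Nat.mod_eq_of_lt h5] at h2
  rw [Nat.mod_eq_of_lt hb] at h3
  have h4 : b - m = ∑ j : Fin a, (dg p b j - dg p m j) * p ^ (j : ℕ) := by
    refine Nat.sub_eq_of_eq_add (h3.symm.trans (Eq.trans ?_ (congrArg _ h2)))
    rw [← Finset.sum_add_distrib]
    exact Finset.sum_congr rfl fun j _ => by rw [← add_mul, Nat.sub_add_cancel ((mem_Bf_iff p).1 hm j)]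
  rcases lt_or_ge l a with h | h
  · rw [h4]
    exact (dg_sum hp (c := fun j => dg p b j - dg p m j) (fun j => (Nat.sub_le _ _).trans_lt (dg_lt' hp b j)) a).2 l h
  · rw [dg_of_le hp hb h, dg_of_le hp ((Nat.sub_le _ _).trans_lt hb) h, Nat.zero_sub]

/-- Lucas -/
theorem choose_single {n i : ℕ} (hi : i < p) (j : ℕ) : (n.choose (i * p ^ j) : k) = ((dg p n j).choose i : ℕ) := by
  have hp := (Fact.out : p.Prime).one_lt
  have h1 : i * p ^ j < p ^ (n + j + 1) :=
    (Nat.mul_lt_mul_of_lt_of_le hi le_rfl (pow_pos (by omega) j)).trans_le (by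
      rw [← pow_succ']; exact Nat.pow_le_pow_right hp.le (by omega))
  have h2 := Choose.choose_modEq_prod_range_choose_nat (p := p)
    ((Nat.lt_pow_self hp).trans_le (Nat.pow_le_pow_right hp.le (show n ≤ n + j + 1 by omega))) h1
  rw [Finset.prod_eq_single j (fun l _ hl => by rw [dg_single hp hi, if_neg hl, Nat.choose_zero_right])
    fun h => absurd (Finset.mem_range.2 (by omega)) h, dg_single hp hi, if_pos rfl] at h2
  exact (CharP.natCast_eq_natCast k p).2 h2

theorem v_ne (hv : Bas ι ρ b v) {m : ℕ} (hm : m ∈ Bf k b) : v m ≠ 0 := hv.li.ne_zero (⟨m, hm⟩ : Bf k b)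

theorem comm_Dm {X : Module.End k V} (hX : ∀ t, Commute X (ρ (u t))) (n : ℕ) : Commute X (Dm ι ρ n) :=
  (Commute.sum_right _ _ _ fun t _ => (hX t).smul_right _).neg_right

theorem Dm_comm_u (n : ℕ) (t : F) : Commute (Dm ι ρ n) (ρ (u t)) :=
  (comm_Dm (fun s => by rw [Commute, SemiconjBy, ← map_mul, ← map_mul, ← u_add, ← u_add, add_comm]) n).symm

variable (hF : Fintype.card F = p ^ a) (hb : b < p ^ a) (hv : Bas ι ρ b v)

section
include hF hb hv

/-- the operators `Dm (i p ^ j)` in the basis -/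
theorem Dm_single {m i : ℕ} (hm : m ∈ Bf k b) (hi0 : 0 < i) (hi : i < p) (j : Fin a) :
    Dm ι ρ (i * p ^ (j : ℕ)) (v m) = ((dg p b j - dg p m j).choose i : k) • v (m + i * p ^ (j : ℕ)) := by
  have hp := (Fact.out : p.Prime).pos
  have h1 : i * p ^ (j : ℕ) < p ^ a := (Nat.mul_lt_mul_of_lt_of_le hi le_rfl (pow_pos hp j)).trans_le (by
    rw [← pow_succ']; exact Nat.pow_le_pow_right hp j.2)
  rw [Dm_bas p (by omega) hv hm (mul_pos hi0 (pow_pos hp j)) (by omega), choose_single hi, dg_sub hb hm]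

theorem Dm_pp {m : ℕ} (hm : m ∈ Bf k b) (j : Fin a) :
    Dm ι ρ (p ^ (j : ℕ)) (v m) = ((dg p b j - dg p m j : ℕ) : k) • v (m + p ^ (j : ℕ)) := by
  simpa using Dm_single hF hb hv hm one_pos (Fact.out : p.Prime).one_lt j

/-- the module is cyclic for `U` -/
theorem eq_of_comm {X Y : Module.End k V} (hX : ∀ t, Commute X (ρ (u t))) (hY : ∀ t, Commute Y (ρ (u t)))
    (h : X (v 0) = Y (v 0)) : X = Y := ext_bas hv fun m hm => by
  rcases Nat.eq_zero_or_pos m with rfl | h0
  · exact h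
  have h1 := le_of_mem_Bf hm
  have h2 := Dm_bas p (by omega) hv zero_mem_Bf h0 (by omega)
  rw [Nat.sub_zero, zero_add] at h2
  refine smul_right_injective V (Finset.mem_filter.1 hm).2 ?_
  dsimp only
  rw [← map_smul, ← map_smul, ← h2, ← Module.End.mul_apply, ← Module.End.mul_apply, (comm_Dm hX m).eq, (comm_Dm hY m).eq,
    Module.End.mul_apply, Module.End.mul_apply, h]

/-- the eigenvalues of a diagonal endomorphism `s` such that `s U s⁻¹` commutes with `U` -/
theorem exists_c {s s' : Module.End k V} (hs' : s * s' = 1) {d : ℕ → k} (hs : ∀ m ∈ Bf k b, s (v m) = d m • v m)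
    (hc : ∀ t t', Commute (s * ρ (u t) * s') (ρ (u t'))) : (∀ m ∈ Bf k b, d m ≠ 0) ∧ ∃ c : Fin a → kˣ,
      (∀ j : Fin a, ∀ m ∈ Bf k b, dg p m j < dg p b j → d (m + p ^ (j : ℕ)) = c j * d m) ∧
      ∀ m ∈ Bf k b, d m = d 0 * ∏ j : Fin a, (c j : k) ^ dg p m j := by
  have hp := (Fact.out : p.Prime).pos
  have : FiniteDimensional k V := Module.Finite.of_basis (Module.Basis.mk hv.li hv.sp)
  have h0 : s' * s = 1 := mul_eq_one_comm.1 hs'
  have h1 : ∀ m ∈ Bf k b, d m • s' (v m) = v m := fun m hm => by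
    rw [← map_smul, ← hs m hm, ← Module.End.mul_apply, h0, Module.End.one_apply]
  have h2 : ∀ m ∈ Bf k b, d m ≠ 0 := fun m hm e => v_ne hv hm (by rw [← h1 m hm, e, zero_smul])
  have h3 : ∀ m ∈ Bf k b, s' (v m) = (d m)⁻¹ • v m := fun m hm => (eq_inv_smul_iff₀ (h2 m hm)).2 (h1 m hm)
  have h4 : ∀ j : Fin a, ∀ m ∈ Bf k b, dg p m j < dg p b j → m + p ^ (j : ℕ) ∈ Bf k b := fun j m hm h => by
    simpa using add_mem_Bf p hm (i := 1) h
  have h5 : ∀ j : Fin a, ∃ c : kˣ, ∀ m ∈ Bf k b, dg p m j < dg p b j → d (m + p ^ (j : ℕ)) = c * d m := fun j => by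
    rcases Nat.eq_zero_or_pos (dg p b j) with h5 | h5
    · exact ⟨1, fun m _ h => by omega⟩
    have h6 := h4 j 0 zero_mem_Bf (by rwa [dg_zero])
    have h7 : ∀ m ∈ Bf k b, dg p m j < dg p b j → (s * Dm ι ρ (p ^ (j : ℕ)) * s') (v m) =
        ((d m)⁻¹ * d (m + p ^ (j : ℕ))) • Dm ι ρ (p ^ (j : ℕ)) (v m) := fun m hm h => by
      rw [Module.End.mul_apply, Module.End.mul_apply, h3 m hm, map_smul, map_smul, Dm_pp hF hb hv hm, map_smul,
        hs _ (h4 j m hm h), mul_smul, smul_comm (d _)]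
    have h8 := eq_of_comm hF hb hv (X := s * Dm ι ρ (p ^ (j : ℕ)) * s')
      (Y := ((d 0)⁻¹ * d (0 + p ^ (j : ℕ))) • Dm ι ρ (p ^ (j : ℕ))) (fun t => by
        rw [Dm, mul_neg, neg_mul, Finset.mul_sum, Finset.sum_mul]
        exact (Commute.sum_left _ _ _ fun t' _ => by
          rw [mul_smul_comm, smul_mul_assoc]; exact (hc t' t).smul_left _).neg_left)
      (fun t => (Dm_comm_u _ t).smul_left _) (h7 0 zero_mem_Bf (by rwa [dg_zero]))
    refine ⟨Units.mk0 _ (mul_ne_zero (inv_ne_zero (h2 0 zero_mem_Bf)) (h2 _ h6)), fun m hm h => ?_⟩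
    have h9 := h7 m hm h
    rw [h8, LinearMap.smul_apply, Dm_pp hF hb hv hm] at h9
    have h10 := smul_left_injective k (smul_ne_zero ((CharP.cast_eq_zero_iff k p _).not.2 (Nat.not_dvd_of_pos_of_lt
      (by omega) ((Nat.sub_le _ _).trans_lt (dg_lt' hp b j)))) (v_ne hv (h4 j m hm h))) h9
    rw [Units.val_mk0, h10, mul_comm, mul_inv_cancel_left₀ (h2 m hm)]
  choose c hc using h5
  refine ⟨h2, c, hc, fun m => ?_⟩
  induction m using Nat.strong_induction_on with
  | _ m ih =>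
  intro hm
  by_cases h6 : ∀ j : Fin a, dg p m j = 0
  · have h7 := sum_dg p m a
    rw [Nat.mod_eq_of_lt ((le_of_mem_Bf hm).trans_lt hb), Finset.sum_eq_zero fun j _ => by rw [h6, zero_mul]] at h7
    simp [← h7, dg_zero]
  obtain ⟨j, hj⟩ := not_forall.1 h6
  have h7 := (mem_Bf_iff p).1 hm j
  have h8 := dg_lt' hp b j
  have h9 := dg_upd hp m j (s := dg p m j - 1) (by omega)
  have h10 : m = upd p m j (dg p m j - 1) + p ^ (j : ℕ) := by
    have h10 := dg_mul_le p m j
    have h11 := Nat.le_mul_of_pos_left (p ^ (j : ℕ)) (Nat.pos_of_ne_zero hj)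
    rw [upd, Nat.sub_one_mul]
    omega
  have h11 := upd_mem p hm j (s := dg p m j - 1) (by omega)
  have h12 := pow_pos hp (j : ℕ)
  rw [(congrArg d h10).trans (hc j _ h11 (by rw [h9, if_pos rfl]; omega)), ih _ (by omega) h11, mul_left_comm,
    ← Finset.mul_prod_erase _ _ (Finset.mem_univ j), ← Finset.mul_prod_erase _ _ (Finset.mem_univ j), h9, if_pos rfl,
    ← mul_assoc (c j : k), ← pow_succ', Nat.sub_add_cancel (Nat.pos_of_ne_zero hj)]
  congr 2
  exact Finset.prod_congr rfl fun l hl => by rw [h9, if_neg fun e => (Finset.mem_erase.1 hl).1 (Fin.ext e)]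

end

namespace Mod

theorem comm (R : (Fin a → SpecialLinearGroup (Fin 2) k) →* Module.End k V) {i j : Fin a} (hij : i ≠ j)
    (x y : SpecialLinearGroup (Fin 2) k) : Commute (R (Pi.mulSingle i x)) (R (Pi.mulSingle j y)) :=
  (Pi.mulSingle_commute (f := fun _ => SpecialLinearGroup (Fin 2) k) hij x y).map R

variable (hR : Mod ι p ρ b v R)
include hR

theorem res' (g : SpecialLinearGroup (Fin 2) F) :
    ρ g = (List.ofFn fun j : Fin a => R (Pi.mulSingle j (SpecialLinearGroup.map (fr ι p j) g))).prod :=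
  (hR.res g).trans (map_eq_prod R _)

theorem res_u (t : F) : ρ (u t) = R fun j => u (ι t ^ p ^ (j : ℕ)) := by simp only [hR.res, map_u, fr_apply]

theorem res_lo (t : F) : ρ (w * u t * w⁻¹) = R fun j => w * u (ι t ^ p ^ (j : ℕ)) * w⁻¹ := by
  simp only [hR.res, map_mul, map_inv, map_u, map_w, fr_apply]

theorem h1 (j : Fin a) {m : ℕ} (hm : m ∈ Bf k b) (z : kˣ) :
    R (Pi.mulSingle j (h z)) (v m) = ((z : k) ^ dg p m j * (z : k)⁻¹ ^ (dg p b j - dg p m j)) • v m := by
  rw [single_h, hR.rh _ m hm, Finset.prod_eq_single j (fun l _ hl => by simp [Pi.mulSingle_eq_of_ne hl]) (by simp),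
    Pi.mulSingle_eq_same]

theorem u_fix (j : Fin a) {m : ℕ} (hm : m ∈ Bf k b) (h : dg p b j ≤ dg p m j) (t : k) :
    R (Pi.mulSingle j (u t)) (v m) = v m := by
  rw [hR.ru j m hm, Nat.sub_eq_zero_of_le h]
  simp

include hv

/-- the slots with digit `0` act trivially -/
theorem triv {j : Fin a} (hj : dg p b j = 0) (g : SpecialLinearGroup (Fin 2) k) : R (Pi.mulSingle j g) = 1 := by
  have h0 : ∀ m ∈ Bf k b, dg p m j = 0 := fun m hm => by have := (mem_Bf_iff p).1 hm j; omega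
  refine induct (P := fun g => R (Pi.mulSingle j g) = 1) (fun t => ext_bas hv fun m hm => hR.u_fix j hm (by omega) t)
    (fun z => ext_bas hv fun m hm => ?_) (ext_bas hv fun m hm => ?_) (fun g g' hg hg' => ?_) g
  · rw [hR.h1 j hm, hj, h0 m hm]
    simp
  · have := upd_self p m j
    rw [h0 m hm] at this
    rw [hR.rw j m hm, hj, h0 m hm, this]
    simp
  · rw [Pi.mulSingle_mul, map_mul, hg, hg', mul_one]

theorem u_eq_one {x : Fin a → k} (h : (R fun j => u (x j)) = 1) {j : Fin a} (hj : dg p b j ≠ 0) : x j = 0 := by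
  have hp := (Fact.out : p.Prime).pos
  have h0 : b ∈ Bf k b := (mem_Bf_iff p).2 fun _ => le_rfl
  have h1 := upd_mem p h0 j (s := dg p b j - 1) (by omega)
  have h2 := dg_upd hp b j (s := dg p b j - 1) ((Nat.sub_le _ _).trans_lt (dg_lt' hp b j))
  have h3 : (fun l => u (x l)) = Pi.mulSingle j (u (x j)) * fun l => u (Function.update x j 0 l) := funext fun l => by
    rcases eq_or_ne l j with rfl | hl
    · simp [u_zero]
    · simp [hl]
  have h4 : (R fun l => u (Function.update x j 0 l)) (v (upd p b j (dg p b j - 1))) = v (upd p b j (dg p b j - 1)) := by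
    rw [map_eq_prod]
    refine List.prod_induction (fun X : Module.End k V => X (v _) = v _) (fun X Y hX hY => ?_) rfl fun X hX => ?_
    · rw [Module.End.mul_apply, hY, hX]
    · obtain ⟨l, rfl⟩ := List.mem_ofFn.1 hX
      rcases eq_or_ne l j with rfl | hl
      · rw [Function.update_self, u_zero, Pi.mulSingle_one, map_one]
        rfl
      · exact hR.u_fix l h1 (by rw [h2, if_neg fun e => hl (Fin.ext e)]) _
  have h5 := LinearMap.congr_fun h (v (upd p b j (dg p b j - 1)))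
  rw [h3, map_mul, Module.End.mul_apply, h4, hR.ru j _ h1, h2, if_pos rfl, show dg p b j - (dg p b j - 1) = 1 by omega,
    Finset.sum_range_succ, Finset.sum_range_one] at h5
  have h6 := v_ne hv (add_mem_Bf p h1 (j := j) (i := 1) (by rw [h2, if_pos rfl]; omega))
  rw [one_mul] at h6
  simpa [h6] using h5

theorem u_inj {x y : Fin a → k} (h : (R fun j => u (x j)) = R fun j => u (y j)) {j : Fin a} (hj : dg p b j ≠ 0) :
    x j = y j := by
  refine sub_eq_zero.1 (hR.u_eq_one hv (x := x - y) ?_ hj)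
  have h1 : (fun l => u ((x - y) l)) = (fun l => u (x l)) * (fun l => u (y l))⁻¹ := funext fun l => by
    rw [Pi.sub_apply, sub_eq_add_neg, u_add, u_neg]
    rfl
  rw [h1, map_mul, h, ← map_mul, mul_inv_cancel, map_one]

include hF hb

/-- the unipotent elements are polynomials in `t` -/
theorem u_poly (j : Fin a) (t : k) :
    R (Pi.mulSingle j (u t)) = 1 + ∑ i ∈ Finset.range (p - 1), t ^ (i + 1) • Dm ι ρ ((i + 1) * p ^ (j : ℕ)) :=
  ext_bas hv fun m hm => by
    have hp := (Fact.out : p.Prime).pos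
    have h1 := dg_lt' hp b j
    rw [hR.ru j m hm, Finset.sum_range_succ', LinearMap.add_apply, LinearMap.sum_apply, add_comm]
    congr 1
    · simp
    rw [Finset.sum_subset (Finset.range_subset_range.2 (show dg p b j - dg p m j ≤ p - 1 by omega)) fun i _ hi => by
      rw [Nat.choose_eq_zero_of_lt (by simpa [Nat.lt_succ_iff] using hi), Nat.cast_zero, zero_mul, zero_smul]]
    exact Finset.sum_congr rfl fun i hi => by
      have := Finset.mem_range.1 hi
      rw [LinearMap.smul_apply, Dm_single hF hb hv hm i.succ_pos (by omega), smul_smul, mul_comm]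

/-- **diagonal endomorphisms** -/
theorem diag [IsAlgClosed k] {s s' : Module.End k V} (hs' : s * s' = 1) {d : ℕ → k}
    (hs : ∀ m ∈ Bf k b, s (v m) = d m • v m) (hc : ∀ t t', Commute (s * ρ (u t) * s') (ρ (u t'))) :
    ∃ (κ : kˣ) (z : Fin a → kˣ), s = (κ : k) • R (fun j => h (z j)) ∧
      (∀ j : Fin a, ∀ m ∈ Bf k b, dg p m j < dg p b j → d (m + p ^ (j : ℕ)) = (z j : k) ^ 2 * d m) ∧
      (∀ γ, s * R γ * s' = R fun j => h (z j) * γ j * (h (z j))⁻¹) ∧
      (∀ (j : Fin a) t, s * R (Pi.mulSingle j (u t)) * s' = R (Pi.mulSingle j (u ((z j : k) ^ 2 * t)))) ∧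
      (∀ t, s * ρ (u t) * s' = R fun j => u ((z j : k) ^ 2 * ι t ^ p ^ (j : ℕ))) ∧
      (∀ t, s * ρ (w * u t * w⁻¹) * s' = R fun j => w * u ((z j : k)⁻¹ ^ 2 * ι t ^ p ^ (j : ℕ)) * w⁻¹) ∧
      ∀ j : Fin a, s * Dm ι ρ (p ^ (j : ℕ)) * s' = (z j : k) ^ 2 • Dm ι ρ (p ^ (j : ℕ)) := by
  obtain ⟨h1, c, h2, h3⟩ := exists_c hF hb hv hs' hs hc
  choose y hy using fun j => IsAlgClosed.exists_pow_nat_eq (c j : k) two_pos
  have h4 : ∀ j, y j ≠ 0 := fun j e => (c j).ne_zero (by rw [← hy, e, zero_pow two_ne_zero])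
  obtain ⟨z, rfl⟩ : ∃ z : Fin a → kˣ, y = fun j => (z j : k) := ⟨fun j => Units.mk0 _ (h4 j), rfl⟩
  have h5 : s = (d 0 * ∏ j : Fin a, (z j : k) ^ dg p b j) • R (fun j => h (z j)) := ext_bas hv fun m hm => by
    rw [hs m hm, LinearMap.smul_apply, hR.rh z m hm, smul_smul, h3 m hm, mul_assoc, ← Finset.prod_mul_distrib]
    congr 2
    refine Finset.prod_congr rfl fun j _ => ?_
    obtain ⟨e, he⟩ := Nat.exists_eq_add_of_le ((mem_Bf_iff p).1 hm j)
    rw [← hy, he, Nat.add_sub_cancel_left, pow_add, inv_pow]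
    have := h4 j
    field_simp
    ring
  have h6 : d 0 * ∏ j : Fin a, (z j : k) ^ dg p b j ≠ 0 :=
    mul_ne_zero (h1 0 zero_mem_Bf) (Finset.prod_ne_zero_iff.2 fun j _ => pow_ne_zero _ (h4 j))
  have h7 : ∀ γ, s * R γ * s' = R fun j => h (z j) * γ j * (h (z j))⁻¹ := fun γ => by
    have h7 : s * R γ = (R fun j => h (z j) * γ j * (h (z j))⁻¹) * s := by
      rw [h5, smul_mul_assoc, mul_smul_comm, ← map_mul, ← map_mul]
      congr 2
      funext j
      simp
    rw [h7, mul_assoc, hs', mul_one]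
  refine ⟨Units.mk0 _ h6, z, h5, fun j m hm h => by rw [h2 j m hm h, ← hy], h7, fun j t => ?_, fun t => ?_, fun t => ?_,
    fun j => ?_⟩
  · rw [h7]
    congr 1
    funext l
    rcases eq_or_ne l j with rfl | hl
    · simp [h_u_h]
    · simp [hl]
  · simp only [hR.res_u, h7, h_u_h]
  · simp only [hR.res_lo, h7, h_lo_h]
  · have h8 : s * Dm ι ρ (p ^ (j : ℕ)) = ((z j : k) ^ 2 • Dm ι ρ (p ^ (j : ℕ))) * s := ext_bas hv fun m hm => by
      rw [Module.End.mul_apply, Module.End.mul_apply, hs m hm, map_smul, LinearMap.smul_apply, Dm_pp hF hb hv hm, map_smul]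
      rcases ((mem_Bf_iff p).1 hm j).eq_or_lt with h | h
      · simp [h]
      · rw [hs _ (by simpa using add_mem_Bf p hm (i := 1) h), h2 j m hm h, ← hy]
        module
    rw [h8, mul_assoc, hs', mul_one]

end Mod

/-- **ALG-M** for `IsV` -/
theorem isV_mod [IsAlgClosed k] (hF : Fintype.card F = p ^ a) (h : IsV ι p ρ b) : b < p ^ a ∧ ∃ v : ℕ → V, Bas ι ρ b v ∧
    ∃ R : (Fin a → SpecialLinearGroup (Fin 2) k) →* Module.End k V, Mod ι p ρ b v R :=
  have hb := label_lt ι p hF h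
  let ⟨v, hv⟩ := h.bas
  ⟨hb, v, hv, exists_mod p hF hb hv⟩

end Cfsg.Agent.E7P.Alm
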