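import Cfsg.Agent.R2.H28.SL2.Bas

/-!
# S5932, task ALG-M: the simple module `V_b` as a module for a product of groups `SL(2, k)` (helper66)

* `dg p n j` : the digits, `upd p m j s` : the digit `j` is replaced by `s`;
* `Mod ι p ρ b v R` : `R` is a representation of `Fin a → SL(2, k)` which restricts to `ρ`, with explicit formulas in the basis `v`;
* `exists_mod` : existence.
-/

set_option autoImplicit false
set_option linter.unusedSectionVars false

namespace Cfsg.Agent.E7P.Alm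

open Matrix Cfsg.Agent.H943.SL2Rel Cfsg.Agent.H943.SL2Mod Cfsg.Agent.R2.H28.SL2 MvPolynomial

/-! ### digits -/

/-- the digit `j` of `n` -/
def dg (p n j : ℕ) : ℕ := n / p ^ j % p

/-- the digit `j` of `m` is replaced by `s` -/
def upd (p m j s : ℕ) : ℕ := m - dg p m j * p ^ j + s * p ^ j

section Digits

variable {p : ℕ}

theorem dg_lt' (hp : 0 < p) (n j : ℕ) : dg p n j < p := Nat.mod_lt _ hp

theorem dg_mul_le (p m j : ℕ) : dg p m j * p ^ j ≤ m :=
  (Nat.mul_le_mul_right _ (Nat.mod_le _ _)).trans (Nat.div_mul_le_self _ _)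

theorem upd_add (p m j i : ℕ) : upd p m j (dg p m j + i) = m + i * p ^ j := by
  have := dg_mul_le p m j
  rw [upd, add_mul]
  omega

theorem upd_self (p m j : ℕ) : upd p m j (dg p m j) = m := by simpa using upd_add p m j 0

theorem dg_aux (hp : 0 < p) {r s j : ℕ} (hr : r < p ^ j) (hs : s < p) (q l : ℕ) :
    dg p (r + p ^ j * (s + p * q)) l = if l < j then dg p r l else if l = j then s else dg p q (l - j - 1) := by
  unfold dg
  split_ifs with h1 h2
  · obtain ⟨e, rfl⟩ := Nat.exists_eq_add_of_lt h1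
    rw [show p ^ (l + e + 1) * (s + p * q) = p ^ l * (p * (p ^ e * (s + p * q))) by ring,
      Nat.add_mul_div_left _ _ (pow_pos hp l), Nat.add_mul_mod_self_left]
  · rw [h2, Nat.add_mul_div_left _ _ (pow_pos hp j), Nat.div_eq_of_lt hr, zero_add, Nat.add_mul_mod_self_left,
      Nat.mod_eq_of_lt hs]
  · obtain ⟨e, rfl⟩ := Nat.exists_eq_add_of_lt (show j < l by omega)
    rw [show j + e + 1 - j - 1 = e by omega, show p ^ (j + e + 1) = p ^ j * p * p ^ e by ring, ← Nat.div_div_eq_div_mul,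
      ← Nat.div_div_eq_div_mul, Nat.add_mul_div_left _ _ (pow_pos hp j), Nat.div_eq_of_lt hr, zero_add,
      Nat.add_mul_div_left _ _ hp, Nat.div_eq_of_lt hs, zero_add]

theorem dg_upd (hp : 0 < p) (m j : ℕ) {s : ℕ} (hs : s < p) (l : ℕ) :
    dg p (upd p m j s) l = if l = j then s else dg p m l := by
  have h1 : m = m % p ^ j + p ^ j * (dg p m j + p * (m / p ^ j / p)) := by
    rw [dg, Nat.mod_add_div, Nat.mod_add_div]
  have h2 : upd p m j s = m % p ^ j + p ^ j * (s + p * (m / p ^ j / p)) := by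
    rw [upd]
    have h3 := h1
    rw [mul_add, mul_comm (p ^ j)] at h3
    rw [mul_add, mul_comm (p ^ j) s]
    generalize m % p ^ j = r at h3 ⊢
    omega
  have h3 := Nat.mod_lt m (pow_pos hp j)
  have h4 := dg_aux hp h3 (dg_lt' hp m j) (m / p ^ j / p) l
  rw [← h1] at h4
  rw [h2, dg_aux hp h3 hs, h4]
  split_ifs <;> first | rfl | omega

theorem dg_add (hp : 0 < p) {m j i : ℕ} (h : dg p m j + i < p) (l : ℕ) :
    dg p (m + i * p ^ j) l = if l = j then dg p m j + i else dg p m l := by rw [← upd_add, dg_upd hp m j h]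

theorem sum_dg (p m a : ℕ) : ∑ j : Fin a, dg p m j * p ^ (j : ℕ) = m % p ^ a := by
  induction a with
  | zero => simp [Nat.mod_one]
  | succ a ih => rw [Fin.sum_univ_castSucc, Nat.mod_pow_succ, ← ih, mul_comm (p ^ a)]; rfl

theorem dg_zero (p j : ℕ) : dg p 0 j = 0 := by simp [dg]

end Digits

theorem prod_ofFn_one {M : Type*} [Monoid M] : ∀ {a : ℕ} (f : Fin a → M) (i : Fin a), (∀ j, j ≠ i → f j = 1) →
    (List.ofFn f).prod = f i
  | 0, _, i, _ => i.elim0
  | a + 1, f, i, h => by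
    rw [List.ofFn_succ, List.prod_cons]
    cases i using Fin.cases with
    | zero =>
      rw [List.prod_eq_one, mul_one]
      intro x hx
      obtain ⟨j, rfl⟩ := List.mem_ofFn.1 hx
      exact h _ (Fin.succ_ne_zero j)
    | succ i =>
      rw [h 0 (Fin.succ_ne_zero i).symm, one_mul, prod_ofFn_one _ i fun j hj => h _ fun e => hj (Fin.succ_inj.1 e)]

theorem prod_single {M : Type*} [Monoid M] {a : ℕ} (γ : Fin a → M) :
    (List.ofFn fun j => (Pi.mulSingle j (γ j) : Fin a → M)).prod = γ := funext fun i => by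
  refine ((Pi.evalMonoidHom (fun _ => M) i).map_list_prod _).trans ?_
  rw [List.map_ofFn, prod_ofFn_one _ i fun j hj => Pi.mulSingle_eq_of_ne hj.symm _]
  exact Pi.mulSingle_eq_same _ _

/-- a homomorphism on a product is the product of its restrictions -/
theorem map_eq_prod {M N : Type*} [Monoid M] [Monoid N] {a : ℕ} (R : (Fin a → M) →* N) (γ : Fin a → M) :
    R γ = (List.ofFn fun j => R (Pi.mulSingle j (γ j))).prod := by
  conv_lhs => rw [← prod_single γ, map_list_prod, List.map_ofFn]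
  rfl

theorem exists_rep {k V P G : Type*} [Field k] [AddCommGroup V] [Module k V] [AddCommGroup P] [Module k P] [Monoid G]
    (Θ : V →ₗ[k] P) (hΘ : Function.Injective Θ) (σ : G →* Module.End k P) (h : ∀ g x, ∃ y, Θ y = σ g (Θ x)) :
    ∃ R : G →* Module.End k V, ∀ g x, Θ (R g x) = σ g (Θ x) := by
  choose f hf using h
  exact ⟨⟨⟨fun g => ⟨⟨f g, fun x y => hΘ (by simp [hf])⟩, fun c x => hΘ (by simp [hf])⟩,
    LinearMap.ext fun x => hΘ (by simp [hf])⟩, fun g g' => LinearMap.ext fun x => hΘ (by simp [hf])⟩, hf⟩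

variable {k : Type*} [Field k] {a : ℕ}

/-! ### the polynomial model -/

section Poly

/-- linear substitutions -/
noncomputable def sbA (γ : Fin a → SpecialLinearGroup (Fin 2) k) :
    MvPolynomial (Fin a × Fin 2) k →ₐ[k] MvPolynomial (Fin a × Fin 2) k :=
  aeval fun x => (γ x.1).1 0 x.2 • X (x.1, 0) + (γ x.1).1 1 x.2 • X (x.1, 1)

theorem sbA_X (γ : Fin a → SpecialLinearGroup (Fin 2) k) (j : Fin a) (s : Fin 2) :
    sbA γ (X (j, s)) = (γ j).1 0 s • X (j, 0) + (γ j).1 1 s • X (j, 1) := aeval_X _ _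

theorem sbA_X_one {γ : Fin a → SpecialLinearGroup (Fin 2) k} {j : Fin a} (h : γ j = 1) (s : Fin 2) :
    sbA γ (X (j, s)) = X (j, s) := by
  rw [sbA_X, h]
  fin_cases s <;> simp

variable (k a) in
/-- the representation on the polynomials -/
noncomputable def sbH : (Fin a → SpecialLinearGroup (Fin 2) k) →* Module.End k (MvPolynomial (Fin a × Fin 2) k) where
  toFun γ := (sbA γ).toLinearMap
  map_one' := congrArg AlgHom.toLinearMap (algHom_ext (f := sbA 1) (g := AlgHom.id k _) fun x => sbA_X_one rfl x.2)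
  map_mul' γ δ := congrArg AlgHom.toLinearMap (algHom_ext (f := sbA (γ * δ)) (g := (sbA γ).comp (sbA δ)) fun x => by
    rw [AlgHom.comp_apply, sbA_X, sbA_X, map_add, map_smul, map_smul, sbA_X, sbA_X, Pi.mul_apply,
      show (γ x.1 * δ x.1).1 = (γ x.1).1 * (δ x.1).1 from rfl, mul_apply, mul_apply, Fin.sum_univ_two, Fin.sum_univ_two]
    module)

variable (k a) (p : ℕ)

/-- the monomials -/
noncomputable def Mn (b m : ℕ) : MvPolynomial (Fin a × Fin 2) k :=
  ∏ j : Fin a, X (j, 0) ^ dg p m j * X (j, 1) ^ (dg p b j - dg p m j)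

variable {a} in
/-- the factors outside the slot `j` -/
noncomputable def Rs (b m : ℕ) (j : Fin a) : MvPolynomial (Fin a × Fin 2) k :=
  ∏ l ∈ Finset.univ.erase j, X (l, 0) ^ dg p m l * X (l, 1) ^ (dg p b l - dg p m l)

variable {k a p}

theorem Mn_upd (hp : 0 < p) (b m : ℕ) (j : Fin a) {s : ℕ} (hs : s < p) :
    Mn k a p b (upd p m j s) = Rs k p b m j * (X (j, 0) ^ s * X (j, 1) ^ (dg p b j - s)) := by
  rw [Mn, ← Finset.prod_erase_mul _ _ (Finset.mem_univ j), dg_upd hp m j hs, if_pos rfl]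
  refine congrArg (· * _) (Finset.prod_congr rfl fun l hl => ?_)
  rw [dg_upd hp m j hs, if_neg fun e => (Finset.mem_erase.1 hl).1 (Fin.ext e)]

theorem sb_single (b m : ℕ) (j : Fin a) (g : SpecialLinearGroup (Fin 2) k) :
    sbH k a (Pi.mulSingle j g) (Mn k a p b m) = Rs k p b m j * ((g.1 0 0 • X (j, 0) + g.1 1 0 • X (j, 1)) ^ dg p m j *
      (g.1 0 1 • X (j, 0) + g.1 1 1 • X (j, 1)) ^ (dg p b j - dg p m j)) := by
  show sbA _ _ = _
  rw [Mn, map_prod, ← Finset.prod_erase_mul _ _ (Finset.mem_univ j), map_mul, map_pow, map_pow, sbA_X, sbA_X,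
    Pi.mulSingle_eq_same]
  refine congrArg (· * _) (Finset.prod_congr rfl fun l hl => ?_)
  have h := Pi.mulSingle_eq_of_ne (M := fun _ => SpecialLinearGroup (Fin 2) k) (Finset.mem_erase.1 hl).1 g
  rw [map_mul, map_pow, map_pow, sbA_X_one h, sbA_X_one h]

theorem sb_u (hp : 0 < p) {b m : ℕ} (j : Fin a) (hm : dg p m j ≤ dg p b j) (t : k) :
    sbH k a (Pi.mulSingle j (u t)) (Mn k a p b m) = ∑ i ∈ Finset.range (dg p b j - dg p m j + 1),
      (((dg p b j - dg p m j).choose i : k) * t ^ i) • Mn k a p b (m + i * p ^ (j : ℕ)) := by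
  rw [sb_single]
  show _ * (((1 : k) • _ + (0 : k) • _) ^ _ * (t • _ + (1 : k) • _) ^ _) = _
  rw [one_smul, zero_smul, add_zero, one_smul, add_pow, Finset.mul_sum, Finset.mul_sum]
  refine Finset.sum_congr rfl fun i hi => ?_
  have h1 := Finset.mem_range.1 hi
  have h2 := dg_lt' hp b j
  rw [← upd_add, Mn_upd hp _ _ _ (by omega), Nat.sub_add_eq, smul_pow, pow_add, smul_eq_C_mul, smul_eq_C_mul, C_mul,
    map_natCast]
  ring

theorem sb_w (hp : 0 < p) {b m : ℕ} (j : Fin a) (hm : dg p m j ≤ dg p b j) :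
    sbH k a (Pi.mulSingle j w) (Mn k a p b m) = (-1 : k) ^ dg p m j • Mn k a p b (upd p m j (dg p b j - dg p m j)) := by
  have h2 := dg_lt' hp b j
  rw [sb_single, Mn_upd hp _ _ _ (by omega), Nat.sub_sub_self hm]
  show _ * (((0 : k) • _ + (-1 : k) • _) ^ _ * ((1 : k) • _ + (0 : k) • _) ^ _) = _
  rw [one_smul, zero_smul, zero_smul, add_zero, zero_add, smul_pow, smul_eq_C_mul, smul_eq_C_mul]
  ring

theorem sb_h (b m : ℕ) (z : Fin a → kˣ) : sbH k a (fun j => h (z j)) (Mn k a p b m) =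
    (∏ j : Fin a, (z j : k) ^ dg p m j * (z j : k)⁻¹ ^ (dg p b j - dg p m j)) • Mn k a p b m := by
  refine (rfl : _ = sbA (fun j => h (z j)) (Mn k a p b m)).trans ?_
  rw [Mn, map_prod, smul_eq_C_mul, map_prod, ← Finset.prod_mul_distrib]
  refine Finset.prod_congr rfl fun j _ => ?_
  rw [map_mul, map_pow, map_pow, sbA_X, sbA_X]
  show ((z j : k) • _ + (0 : k) • _) ^ _ * ((0 : k) • _ + (z j : k)⁻¹ • _) ^ _ = _
  rw [zero_smul, zero_smul, add_zero, zero_add, smul_eq_C_mul, smul_eq_C_mul, C_mul, C_pow, C_pow]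
  ring

theorem single_h (j : Fin a) (z : kˣ) :
    (Pi.mulSingle j (h z) : Fin a → SpecialLinearGroup (Fin 2) k) = fun l => h ((Pi.mulSingle j z : Fin a → kˣ) l) :=
  funext fun l => (Pi.apply_mulSingle (M := fun _ => kˣ) (fun _ => h) (fun _ => h_one) j z l).symm

end Poly

/-! ### the module `V_b` -/

variable [DecidableEq k] {F : Type*} [Field F] [Fintype F] [DecidableEq F] (ι : F →+* k) (p : ℕ) [Fact p.Prime] [CharP k p]
  [CharP F p] {V : Type*} [AddCommGroup V] [Module k V] {ρ : Representation k (SpecialLinearGroup (Fin 2) F) V} {b : ℕ}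
  {v : ℕ → V}

/-- the twisted embeddings -/
def fr (j : ℕ) : F →+* k := (iterateFrobenius k p j).comp ι

theorem fr_apply (j : ℕ) (t : F) : fr ι p j t = ι t ^ p ^ j := iterateFrobenius_def _ _ _

theorem mem_Bf_iff {m : ℕ} : m ∈ Bf k b ↔ ∀ i, dg p m i ≤ dg p b i := by
  rw [Bf, Finset.mem_filter, Finset.mem_range, and_iff_right_of_imp fun h => ?_, choose_ne_iff p]
  · rfl
  · by_contra h1
    exact h (by rw [Nat.choose_eq_zero_of_lt (by omega), Nat.cast_zero])

theorem le_of_mem_Bf {m : ℕ} (hm : m ∈ Bf k b) : m ≤ b :=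
  Nat.lt_succ_iff.1 (Finset.mem_range.1 (Finset.mem_filter.1 hm).1)

theorem zero_mem_Bf : 0 ∈ Bf k b := Finset.mem_filter.2 ⟨Finset.mem_range.2 b.succ_pos, by simp⟩

theorem upd_mem {m : ℕ} (hm : m ∈ Bf k b) (j : ℕ) {s : ℕ} (hs : s ≤ dg p b j) : upd p m j s ∈ Bf k b := by
  have hp := (Fact.out : p.Prime).pos
  refine (mem_Bf_iff p).2 fun i => ?_
  rw [dg_upd hp m j (hs.trans_lt (dg_lt' hp b j))]
  split_ifs with h
  · rwa [h]
  · exact (mem_Bf_iff p).1 hm i

theorem add_mem_Bf {m : ℕ} (hm : m ∈ Bf k b) {j i : ℕ} (hi : dg p m j + i ≤ dg p b j) : m + i * p ^ j ∈ Bf k b :=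
  upd_add p m j i ▸ upd_mem p hm j hi

theorem add_mem_of_choose {m j : ℕ} (hm : m ∈ Bf k b) (h : ((b - m).choose j : k) ≠ 0) : m + j ∈ Bf k b := by
  have h1 := le_of_mem_Bf hm
  have h2 : j ≤ b - m := by
    by_contra h2
    exact h (by rw [Nat.choose_eq_zero_of_lt (by omega), Nat.cast_zero])
  refine Finset.mem_filter.2 ⟨Finset.mem_range.2 (by omega), fun h3 => ?_⟩
  have h4 := congrArg (Nat.cast : ℕ → k) (Nat.choose_mul (n := b) (k := m + j) (s := m) (by omega))
  rw [Nat.cast_mul, Nat.cast_mul, h3, zero_mul, Nat.add_sub_cancel_left] at h4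
  exact mul_ne_zero (Finset.mem_filter.1 hm).2 h h4.symm

variable {ι} in
theorem ext_bas (hv : Bas ι ρ b v) {W : Type*} [AddCommGroup W] [Module k W] {f g : V →ₗ[k] W}
    (h : ∀ m ∈ Bf k b, f (v m) = g (v m)) : f = g :=
  LinearMap.ext_on_range (top_le_iff.1 hv.sp) fun m => h m m.2

variable {ι} in
theorem exists_lin (hv : Bas ι ρ b v) {W : Type*} [AddCommGroup W] [Module k W] (y : ℕ → W) :
    ∃ f : V →ₗ[k] W, ∀ m ∈ Bf k b, f (v m) = y m :=
  ⟨(Module.Basis.mk hv.li hv.sp).constr k fun m => y m, fun m hm => by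
    have := (Module.Basis.mk hv.li hv.sp).constr_basis k (fun m => y m) ⟨m, hm⟩
    rwa [Module.Basis.mk_apply] at this⟩

variable {ι} in
include p in
/-- the embedding into the functions -/
theorem emb_spec (hb : b ≤ Fintype.card F - 1) (hv : Bas ι ρ b v) {θ : V →ₗ[k] (F × F → k)}
    (hθ : ∀ m ∈ Bf k b, θ (v m) = mon ι b m) : Function.Injective θ ∧ ∀ g x, θ (ρ g x) = fRep k F g (θ x) := by
  constructor
  · refine LinearMap.injective_of_linearIndependent (top_le_iff.1 hv.sp) (Fintype.linearIndependent_iff.2 fun c hc => ?_)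
    obtain ⟨e, he⟩ := H179.SLC.exists_coord ι p ι.injective (neg_one_pow_Q ι) hb
    refine congrFun (e.map_eq_zero_iff.1 (Subtype.ext ((he c).trans (Eq.trans ?_ hc))))
    exact Finset.sum_congr rfl fun m _ => by rw [Function.comp_apply, hθ m m.2]
  · have h1 : ∀ g, (∀ m ∈ Bf k b, θ (ρ g (v m)) = fRep k F g (θ (v m))) → ∀ x, θ (ρ g x) = fRep k F g (θ x) :=
      fun g hg => LinearMap.congr_fun (ext_bas hv (f := θ ∘ₗ ρ g) (g := fRep k F g ∘ₗ θ) hg)
    refine induct (fun t => h1 _ fun m hm => ?_) (fun z => h1 _ fun m hm => ?_) (h1 _ fun m hm => ?_) fun g g' hg hg' x => ?_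
    · rw [hv.u m hm, hθ m hm, u_mon, map_sum]
      refine Finset.sum_congr rfl fun j _ => ?_
      by_cases h2 : ((b - m).choose j : k) = 0
      · simp [h2]
      · rw [map_smul, hθ _ (add_mem_of_choose hm h2)]
    · rw [hv.h m hm, map_smul, hθ m hm, h_mon]
    · have h2 := le_of_mem_Bf hm
      rw [hv.w m hm, map_smul, hθ m hm, w_mon ι h2, hθ _ (Finset.mem_filter.2 ⟨Finset.mem_range.2 (by omega), by
        rw [Nat.choose_symm h2]
        exact (Finset.mem_filter.1 hm).2⟩)]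
    · rw [map_mul, map_mul, Module.End.mul_apply, Module.End.mul_apply, hg, hg']

variable {ι} in
include p in
/-- the operators `Dm` in the basis -/
theorem Dm_bas (hb : b ≤ Fintype.card F - 1) (hv : Bas ι ρ b v) {m n : ℕ} (hm : m ∈ Bf k b) (hn : 1 ≤ n)
    (hn' : n ≤ Fintype.card F - 1) : Dm ι ρ n (v m) = ((b - m).choose n : k) • v (m + n) := by
  obtain ⟨θ, hθ⟩ := exists_lin hv (mon ι b)
  obtain ⟨h1, h2⟩ := emb_spec p hb hv hθ
  refine h1 ?_
  rw [Dm_comm ι ρ _ θ h2, hθ m hm, Dm_mon ι hb (le_of_mem_Bf hm) hn hn', map_smul]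
  by_cases h3 : ((b - m).choose n : k) = 0
  · simp [h3]
  · rw [hθ _ (add_mem_of_choose hm h3)]

variable (ρ b v) in
/-- **the model**: `R` is a representation of the product of `a` copies of `SL(2, k)` -/
structure Mod (R : (Fin a → SpecialLinearGroup (Fin 2) k) →* Module.End k V) : Prop where
  res : ∀ g, ρ g = R fun j => SpecialLinearGroup.map (fr ι p j) g
  ru : ∀ (j : Fin a), ∀ m ∈ Bf k b, ∀ t : k, R (Pi.mulSingle j (u t)) (v m) =
    ∑ i ∈ Finset.range (dg p b j - dg p m j + 1), (((dg p b j - dg p m j).choose i : k) * t ^ i) • v (m + i * p ^ (j : ℕ))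
  rh : ∀ (z : Fin a → kˣ), ∀ m ∈ Bf k b, R (fun j => h (z j)) (v m) =
    (∏ j : Fin a, (z j : k) ^ dg p m j * (z j : k)⁻¹ ^ (dg p b j - dg p m j)) • v m
  rw : ∀ (j : Fin a), ∀ m ∈ Bf k b, R (Pi.mulSingle j w) (v m) =
    (-1 : k) ^ dg p m j • v (upd p m j (dg p b j - dg p m j))

variable {ι} in
/-- **existence of the model** -/
theorem exists_mod (hF : Fintype.card F = p ^ a) (hb : b < p ^ a) (hv : Bas ι ρ b v) :
    ∃ R : (Fin a → SpecialLinearGroup (Fin 2) k) →* Module.End k V, Mod ι p ρ b v R := by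
  have hp := (Fact.out : p.Prime).pos
  obtain ⟨Θ, hΘ⟩ := exists_lin hv (Mn k a p b)
  let pt : F × F → Fin a × Fin 2 → k := fun z x => fr ι p x.1 (![z.1, z.2] x.2)
  let ψ : MvPolynomial (Fin a × Fin 2) k →ₗ[k] (F × F → k) := LinearMap.pi fun z => (aeval (pt z)).toLinearMap
  have h1 : ∀ m ∈ Bf k b, (ψ ∘ₗ Θ) (v m) = mon ι b m := fun m hm => funext fun z => by
    show aeval (pt z) (Θ (v m)) = ι z.1 ^ m * ι z.2 ^ (b - m)
    have h2 := sum_dg p m a
    have h3 := sum_dg p b a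
    rw [Nat.mod_eq_of_lt ((le_of_mem_Bf hm).trans_lt hb)] at h2
    rw [Nat.mod_eq_of_lt hb] at h3
    have h4 : b - m = ∑ j : Fin a, (dg p b j - dg p m j) * p ^ (j : ℕ) := by
      refine Nat.sub_eq_of_eq_add (h3.symm.trans (Eq.trans ?_ (congrArg _ h2)))
      rw [← Finset.sum_add_distrib]
      exact Finset.sum_congr rfl fun j _ => by rw [← add_mul, Nat.sub_add_cancel ((mem_Bf_iff p).1 hm j)]
    rw [hΘ m hm, Mn, map_prod, h4]
    conv_rhs => rw [← h2]
    rw [← Finset.prod_pow_eq_pow_sum, ← Finset.prod_pow_eq_pow_sum, ← Finset.prod_mul_distrib]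
    refine Finset.prod_congr rfl fun j _ => ?_
    rw [map_mul, map_pow, map_pow, aeval_X, aeval_X, mul_comm _ (p ^ (j : ℕ)), mul_comm _ (p ^ (j : ℕ)), pow_mul, pow_mul,
      ← fr_apply, ← fr_apply, h2]
    rfl
  obtain ⟨h2, h3⟩ := emb_spec p (by omega) hv h1
  have h4 : Function.Injective Θ := Function.Injective.of_comp (f := ψ) h2
  have hu : ∀ (j : Fin a), ∀ m ∈ Bf k b, ∀ t : k, Θ (∑ i ∈ Finset.range (dg p b j - dg p m j + 1),
      (((dg p b j - dg p m j).choose i : k) * t ^ i) • v (m + i * p ^ (j : ℕ))) =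
      sbH k a (Pi.mulSingle j (u t)) (Θ (v m)) := fun j m hm t => by
    have h5 := (mem_Bf_iff p).1 hm j
    rw [hΘ m hm, sb_u hp j h5, map_sum]
    exact Finset.sum_congr rfl fun i hi => by
      have := Finset.mem_range.1 hi
      rw [map_smul, hΘ _ (add_mem_Bf p hm (by omega))]
  have hh : ∀ (z : Fin a → kˣ), ∀ m ∈ Bf k b,
      Θ ((∏ j : Fin a, (z j : k) ^ dg p m j * (z j : k)⁻¹ ^ (dg p b j - dg p m j)) • v m) =
        sbH k a (fun j => h (z j)) (Θ (v m)) := fun z m hm => by rw [map_smul, hΘ m hm, sb_h]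
  have hw : ∀ (j : Fin a), ∀ m ∈ Bf k b, Θ ((-1 : k) ^ dg p m j • v (upd p m j (dg p b j - dg p m j))) =
      sbH k a (Pi.mulSingle j w) (Θ (v m)) := fun j m hm => by
    rw [map_smul, hΘ m hm, sb_w hp j ((mem_Bf_iff p).1 hm j), hΘ _ (upd_mem p hm j (Nat.sub_le _ _))]
  have h5 : ∀ γ, (∀ m ∈ Bf k b, ∃ y, Θ y = sbH k a γ (Θ (v m))) → ∀ x, ∃ y, Θ y = sbH k a γ (Θ x) := fun γ h x => by
    have h6 : ⊤ ≤ (LinearMap.range Θ).comap (sbH k a γ ∘ₗ Θ) :=
      hv.sp.trans (Submodule.span_le.2 (by rintro _ ⟨m, rfl⟩; exact h m m.2))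
    exact h6 (Submodule.mem_top (x := x))
  let S : Submonoid (Fin a → SpecialLinearGroup (Fin 2) k) :=
    { carrier := {γ | ∀ x, ∃ y, Θ y = sbH k a γ (Θ x)}
      one_mem' := fun x => ⟨x, by rw [map_one]; rfl⟩
      mul_mem' := fun {γ δ} hγ hδ x => by
        obtain ⟨y, hy⟩ := hδ x
        obtain ⟨y', hy'⟩ := hγ y
        exact ⟨y', by rw [map_mul, Module.End.mul_apply, ← hy, hy']⟩ }
  have h6 : ∀ (j : Fin a) g, Pi.mulSingle j g ∈ S := fun j => induct (fun t => h5 _ fun m hm => ⟨_, hu j m hm t⟩)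
    (fun z => h5 _ fun m hm => ⟨_, single_h j z ▸ hh _ m hm⟩) (h5 _ fun m hm => ⟨_, hw j m hm⟩)
    fun g g' hg hg' => by rw [Pi.mulSingle_mul]; exact mul_mem hg hg'
  obtain ⟨R, hR⟩ := exists_rep Θ h4 (sbH k a) fun γ => show γ ∈ S from prod_single γ ▸ list_prod_mem fun x hx => by
    obtain ⟨j, rfl⟩ := List.mem_ofFn.1 hx
    exact h6 j _
  refine ⟨R, fun g => LinearMap.ext fun x => h2 ?_, fun j m hm t => h4 ((hR _ _).trans (hu j m hm t).symm),
    fun z m hm => h4 ((hR _ _).trans (hh z m hm).symm), fun j m hm => h4 ((hR _ _).trans (hw j m hm).symm)⟩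
  rw [h3, LinearMap.comp_apply, LinearMap.comp_apply, hR]
  funext z
  refine DFunLike.congr_fun (algHom_ext (f := aeval (pt _)) (g := (aeval (pt z)).comp (sbA _)) fun x => ?_) (Θ x)
  obtain ⟨j, s⟩ := x
  rw [AlgHom.comp_apply, sbA_X, map_add, map_smul, map_smul, aeval_X, aeval_X, aeval_X]
  fin_cases s <;> simp [pt, mul_comm]

end Cfsg.Agent.E7P.Alm
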